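import Cfsg.Agent.H210.DoRes.OmAbs
import Cfsg.Agent.H210.DoRes.OmGrp
import Cfsg.Agent.H173.OI.Shape

/-!
# `Ω_(2n+1)(q)` has no irreducible projective representation of degree `2n+2` in odd characteristic (helper210)
-/

set_option autoImplicit false

namespace Cfsg.Agent.H210.DoRes

open Module
open scoped commutatorElement Matrix
open Cfsg.Agent.LieClassical.OrthFourCommon

section

variable {F V G S : Type*} [Field F] [AddCommGroup V] [Module F V]
  [Group G] [Group S] {ρ : G →* (V ≃ₗ[F] V)} {π : G →* S}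

theorem om_case' [FiniteDimensional F V] (h : PR ρ π) (h2 : (2 : F) ≠ 0) {n : ℕ} (hn : 4 ≤ n)
    (hdim : finrank F V = 2 * n + 2)
    (hirr : ∀ U : Submodule F V, (∀ g, ∀ v ∈ U, ρ g v ∈ U) → U = ⊥ ∨ U = ⊤)
    {K : Type} [Field K] [Fintype K] (hK : (2 : K) ≠ 0)
    (e : S ≃* (commutator (IG K (Fin (2 * n + 1))) ⧸ Subgroup.center (commutator (IG K (Fin (2 * n + 1)))))) : False := by
  classical
  set κ := Fin (2 * n + 1) with hκd
  have hκ : Fintype.card κ = 2 * n + 1 := Fintype.card_fin _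
  have ho : Odd (Fintype.card κ) := ⟨n, hκ⟩
  set Ω := commutator (IG K κ) with hΩ
  let q : Ω →* S := e.symm.toMonoidHom.comp (QuotientGroup.mk' (Subgroup.center Ω))
  have q_surj : Function.Surjective q := e.symm.surjective.comp (QuotientGroup.mk'_surjective _)
  have q_one : ∀ x, q x = 1 → x ∈ Subgroup.center Ω := fun x hx => by
    have : (QuotientGroup.mk' (Subgroup.center Ω)) x = 1 := e.symm.injective (hx.trans (map_one e.symm).symm)
    exact (QuotientGroup.eq_one_iff x).1 this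
  let sΩ : κ → Ω := fun i => ⟨sI i, sI_mem hK ho i⟩
  let pΩ : alternatingGroup κ →* Ω :=
    ((pI K κ).comp (alternatingGroup κ).subtype).codRestrict Ω (fun σ => pI_mem (by omega) σ.2)
  have conjΩ : ∀ (σ : alternatingGroup κ) i, pΩ σ * sΩ i * (pΩ σ)⁻¹ = sΩ ((σ : Equiv.Perm κ) i) := fun σ i =>
    Subtype.ext (sI_conj hK (pI K κ σ) (pI_ee (K := K) (σ : Equiv.Perm κ) i))
  have hlist : ∀ L : List κ, ((L.map sΩ).prod : Ω) = ((L.map fun i => (sI i : IG K κ)).prod : IG K κ) := by
    intro L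
    induction L with
    | nil => rfl
    | cons i L ih => rw [List.map_cons, List.prod_cons, List.map_cons, List.prod_cons, ← ih]; rfl
  refine om_abs (κ := κ) h h2 hn hκ hdim hirr (fun i => q (sΩ i)) (fun i => ?_) (fun i j => ?_) ?_ (fun i hi => ?_)
    (q.comp pΩ) (fun σ i => ?_) (fun H hH => ?_)
  · rw [← map_mul, ← map_one q]
    congr 1
    exact Subtype.ext (sI_sq i)
  · exact (show Commute (sΩ i) (sΩ j) from Subtype.ext (sI_comm i j)).map q
  · have e1 : ((Finset.univ : Finset κ).toList.map fun i => q (sΩ i)) = ((Finset.univ : Finset κ).toList.map sΩ).map q := by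
      rw [List.map_map]; rfl
    rw [e1, ← map_list_prod, ← map_one q]
    congr 1
    apply Subtype.ext
    rw [hlist, list_sI_univ ho]; rfl
  · have hc := q_one _ hi
    obtain ⟨j, hj⟩ : ∃ j : κ, j ≠ i := Fintype.exists_ne_of_one_lt_card (by omega) i
    obtain ⟨σ, hσ, h1⟩ := exists_alt_map (κ := κ) (by omega) (J := {i}) (J' := {j}) (by simp)
    have e' : σ i = j := by
      have := congrArg (fun K : Finset κ => j ∈ K) h1
      simp at this
      exact this.symm
    have e2 := conjΩ ⟨σ, hσ⟩ i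
    rw [Subgroup.mem_center_iff.1 hc, mul_inv_cancel_right] at e2
    simp only [e'] at e2
    have e3 : (sI i : IG K κ) = sI j := congrArg Subtype.val e2
    have e4 : rI (ee K i) = rI (ee K j) := mul_left_cancel e3
    have e5 := congrFun (congrArg (fun g : IG K κ => g (ee K i)) e4) i
    simp only [rI_ee, if_pos, ee_apply, if_neg hj.symm] at e5
    apply hK
    have : (2 : K) = 1 - -1 := by norm_num
    rw [this, e5, sub_self]
  · show q (pΩ σ) * q (sΩ i) * (q (pΩ σ))⁻¹ = q (sΩ _)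
    rw [← map_inv, ← map_mul, ← map_mul, conjΩ]
  · have hle : Ω ≤ (H.comap q).map Ω.subtype := by
      refine gen_two hK (by omega) _ fun i j hij g hg hgi hgj => ?_
      refine ⟨⟨g, hg⟩, ?_, rfl⟩
      have key : ∀ k, g (ee K k) = ee K k → Commute (q ⟨g, hg⟩) (q (sΩ k)) := by
        intro k hk
        refine (show Commute (⟨g, hg⟩ : Ω) (sΩ k) from Subtype.ext ?_).map q
        exact mul_inv_eq_iff_eq_mul.1 (sI_conj hK g hk)
      exact hH i j hij _ (key i hgi) (key j hgj)
    rw [eq_top_iff]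
    intro y _
    obtain ⟨x, rfl⟩ := q_surj y
    obtain ⟨x', hx', he⟩ := hle x.2
    have : x' = x := Subtype.ext he
    rw [← this]
    exact hx'

theorem om_case [FiniteDimensional F V] (h : PR ρ π) (h2 : (2 : F) ≠ 0) {n : ℕ} (hn : 4 ≤ n)
    (hdim : finrank F V = 2 * n + 2)
    (hirr : ∀ U : Submodule F V, (∀ g, ∀ v ∈ U, ρ g v ∈ U) → U = ⊥ ∨ U = ⊤)
    {K : Type} [Field K] [Fintype K] (hK : (2 : K) ≠ 0)
    (e : S ≃* Cfsg.POmega K (Cfsg.quadFormOdd n K)) : False := by
  classical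
  rcases Cfsg.Agent.H173.OI.shape (fun _ : Fin (2 * n + 1) => (1 : K)) hK (fun _ => one_ne_zero) with
    ⟨m, hm, ⟨f⟩⟩ | ⟨m, hm, -⟩ | ⟨m, hm, -⟩
  · have hmn : m = n := by omega
    subst hmn
    obtain ⟨e0⟩ := exists_isometryGroup_equiv (LinearEquiv.refl K (Fin (2 * m + 1) → K))
      (Cfsg.Agent.H323.OI.dq (fun _ : Fin (2 * m + 1) => (1 : K))) (QS K (Fin (2 * m + 1))) (fun v => by
        simp [Cfsg.Agent.H323.OI.dq, QS])
    obtain ⟨e1⟩ := Cfsg.Agent.ClassicalGeometry.OddInvolutions.commutator_quot_center_congr e0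
    exact om_case' h h2 hn hdim hirr hK ((e.trans f.symm).trans e1)
  · omega
  · omega

end

end Cfsg.Agent.H210.DoRes
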