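import Cfsg.Agent.H210.DoRes.SpMain
import Cfsg.Agent.H210.DoRes.OmMain
import Cfsg.Agent.H436.Names
import Cfsg.Prelude.Def_GeometricClasses

/-!
# DO-RES of S4785: no residual core `Ω_(2n+1)(q)`, `PSp_2n(q)` (`q` odd, `n ≥ 4`) in `GL_(2n+2)(F)`, `char F ≠ 2` (helper210)
-/

set_option autoImplicit false

namespace Cfsg.Agent.H210.DoRes

open Module Cfsg Cfsg.Geo
open scoped commutatorElement Matrix
open Cfsg.Agent.LieClassical.OrthFourCommon

section

variable {ι : Type} [Fintype ι] [DecidableEq ι] {F : Type} [Field F]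

/-- the action of a matrix group on `F^ι` -/
noncomputable def rhoP (P : Subgroup (GL ι F)) : P →* ((ι → F) ≃ₗ[F] (ι → F)) :=
  (glEquiv (LinearEquiv.refl F (ι → F))).toMonoidHom.comp P.subtype

theorem rhoP_apply (P : Subgroup (GL ι F)) (g : P) (v : ι → F) :
    rhoP P g v = ((g : GL ι F) : Matrix ι ι F) *ᵥ v := rfl

theorem pr_of (P : Subgroup (GL ι F)) [Nonempty ι] {S : Type*} [Group S] (e : S ≃* P ⧸ (scalars ι F).subgroupOf P) :
    PR (rhoP P) (e.symm.toMonoidHom.comp (QuotientGroup.mk' ((scalars ι F).subgroupOf P))) := by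
  have hmem : ∀ g : P, (e.symm.toMonoidHom.comp (QuotientGroup.mk' ((scalars ι F).subgroupOf P))) g = 1 ↔
      (g : GL ι F) ∈ scalars ι F := by
    intro g
    constructor
    · intro h
      have : (QuotientGroup.mk' ((scalars ι F).subgroupOf P)) g = 1 := e.symm.injective (h.trans (map_one e.symm).symm)
      exact Subgroup.mem_subgroupOf.1 ((QuotientGroup.eq_one_iff g).1 this)
    · intro h
      have : (QuotientGroup.mk' ((scalars ι F).subgroupOf P)) g = 1 :=
        (QuotientGroup.eq_one_iff g).2 (Subgroup.mem_subgroupOf.2 h)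
      show e.symm _ = 1
      rw [this, map_one]
  refine ⟨e.symm.surjective.comp (QuotientGroup.mk'_surjective _), fun g hg => ?_, fun g a hg => ?_, ?_⟩
  · obtain ⟨c, hc⟩ := (mem_scalars_iff _).1 ((hmem g).1 hg)
    refine ⟨c, fun v => ?_⟩
    rw [rhoP_apply, hc, Matrix.smul_mulVec, Matrix.one_mulVec]
  · rw [hmem, mem_scalars_iff]
    have ha : a ≠ 0 := by
      rintro rfl
      obtain ⟨i⟩ := ‹Nonempty ι›
      have h1 : rhoP P g (Pi.single i 1) = 0 := by rw [hg, zero_smul]
      have h3 := (rhoP P g).map_eq_zero_iff.1 h1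
      have h4 := congrFun h3 i
      rw [Pi.single_eq_same] at h4
      exact one_ne_zero h4
    refine ⟨Units.mk0 a ha, ?_⟩
    apply Matrix.ext_of_mulVec_single
    intro i
    have := hg (Pi.single i 1)
    rw [rhoP_apply] at this
    rw [this, Units.val_mk0, Matrix.smul_mulVec, Matrix.one_mulVec]
  · intro g k h
    apply Subtype.ext
    exact (glEquiv (LinearEquiv.refl F (ι → F))).injective h

theorem do_res [Fintype F] (h2 : (2 : F) ≠ 0) {H P : Subgroup (GL ι F)} (hP : IsResidualCore H P) {n q : ℕ}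
    (hn : 4 ≤ n) (hq : ¬ 2 ∣ q) (hdim : Fintype.card ι = 2 * n + 2) {S : Type*} [Group S]
    (e : S ≃* P ⧸ (scalars ι F).subgroupOf P)
    (hS : Cfsg.Agent.H436.IsNamed (.oodd n q) S ∨ Cfsg.Agent.H436.IsNamed (.psp n q) S) : False := by
  have hne : Nonempty ι := by
    rw [← Fintype.card_pos_iff]; omega
  have hpr := pr_of P e
  have hfin : finrank F (ι → F) = 2 * n + 2 := by rw [Module.finrank_fintype_fun_eq_card, hdim]
  have hirr : ∀ U : Submodule F (ι → F), (∀ g, ∀ v ∈ U, rhoP P g v ∈ U) → U = ⊥ ∨ U = ⊤ := by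
    intro U hU
    refine hP.absIrred.1 U ?_
    rintro _ ⟨g, hg, rfl⟩ w ⟨v, hv, rfl⟩
    rw [Matrix.toLin'_apply]
    exact hU ⟨g, hg⟩ v hv
  have two : ∀ {K : Type} [Field K] [Fintype K], Fintype.card K = q → (2 : K) ≠ 0 := by
    intro K _ _ hK h
    have h3 : ((Fintype.card K : ℕ) : K) = 0 := Nat.cast_card_eq_zero K
    obtain ⟨m, hm⟩ := Nat.odd_iff.2 (Nat.two_dvd_ne_zero.1 hq)
    rw [hK, hm] at h3
    push_cast at h3
    rw [h, zero_mul, zero_add] at h3
    exact one_ne_zero h3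
  rcases hS with hS | hS
  · obtain ⟨K, _, _, hK, ⟨f⟩⟩ := hS.real
    exact om_case hpr h2 hn hfin hirr (two hK) f
  · obtain ⟨K, _, _, hK, ⟨f⟩⟩ := hS.real
    exact sp_case hpr h2 hn hfin (two hK) f

end

end Cfsg.Agent.H210.DoRes
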