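import Cfsg.Agent.H210.DoRes.Proj

/-!
# No irreducible projective representation of degree `n₀ + 1` for a group like `Ω_n₀`, abstract part (helper210)
-/

set_option autoImplicit false

namespace Cfsg.Agent.H210.DoRes

open Module
open scoped commutatorElement

section omabs

variable {F V G S κ : Type*} [Field F] [AddCommGroup V] [Module F V]
  [Group G] [Group S] [Fintype κ] [DecidableEq κ] {ρ : G →* (V ≃ₗ[F] V)} {π : G →* S}

/-- a lift of `p σ`, `σ i = i`, commutes with the lifts of `s i` -/
theorem om_fix (h : PR ρ π) (h6 : 6 ≤ Fintype.card κ) (s : κ → S) (p : alternatingGroup κ →* S)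
    (hp : ∀ σ i, p σ * s i * (p σ)⁻¹ = s ((σ : Equiv.Perm κ) i)) {i : κ} {σ : alternatingGroup κ}
    (hσ : (σ : Equiv.Perm κ) i = i) {g t : G} (hg : π g = p σ) (ht : π t = s i) : Commute g t := by
  classical
  -- the embedding of the alternating group of the complement
  let ψ : alternatingGroup {j // j ≠ i} →* alternatingGroup κ :=
    ((Equiv.Perm.ofSubtype : Equiv.Perm {j // j ≠ i} →* Equiv.Perm κ).comp (alternatingGroup {j // j ≠ i}).subtype).codRestrict
      (alternatingGroup κ) (fun τ => by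
        rw [Equiv.Perm.mem_alternatingGroup]
        show Equiv.Perm.sign (Equiv.Perm.ofSubtype (τ : Equiv.Perm {j // j ≠ i})) = 1
        rw [Equiv.Perm.sign_ofSubtype]
        exact τ.2)
  have hψ : ∀ τ, ((ψ τ : alternatingGroup κ) : Equiv.Perm κ) i = i := fun τ => by
    show Equiv.Perm.ofSubtype (τ : Equiv.Perm {j // j ≠ i}) i = i
    exact Equiv.Perm.ofSubtype_apply_of_not_mem _ (by simp)
  have hcs : ∀ τ, Commute (p (ψ τ)) (s i) := fun τ => by
    have := hp (ψ τ) i
    rw [hψ] at this
    exact mul_inv_eq_iff_eq_mul.1 this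
  let K : Subgroup (alternatingGroup {j // j ≠ i}) :=
    { carrier := {τ | ∀ g, π g = p (ψ τ) → Commute g t}
      mul_mem' := by
        intro α β hα hβ g hg
        obtain ⟨g1, hg1⟩ := h.surj (p (ψ α))
        have e : g = g1 * (g1⁻¹ * g) := by group
        rw [e]
        refine (hα g1 hg1).mul_left (hβ _ ?_)
        rw [map_mul, map_inv, hg1, hg, map_mul, map_mul, inv_mul_cancel_left]
      one_mem' := by
        intro g hg
        exact h.central (by rw [hg, map_one, map_one]) t
      inv_mem' := by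
        intro α hα g hg
        have := hα g⁻¹ (by rw [map_inv, hg, map_inv, map_inv, inv_inv])
        exact Commute.inv_left_iff.1 this }
  have hK : commutator (alternatingGroup {j // j ≠ i}) ≤ K := by
    rw [commutator_def, Subgroup.commutator_le]
    intro α _ β _ g hg
    have e : π g = π (h.cm (p (ψ α)) (p (ψ β))) := by rw [hg, h.π_cm, ← map_commutatorElement, ← map_commutatorElement]
    obtain ⟨z, hz, rfl⟩ := h.exists_mul e
    refine (h.central hz t).mul_left (h.commute_cm ?_ ?_).symm
    · rw [ht]; exact (hcs α).symm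
    · rw [ht]; exact (hcs β).symm
  rw [commutator_alternatingGroup_eq_top (by
    rw [Nat.card_eq_fintype_card, Fintype.card_subtype_compl, Fintype.card_subtype_eq]; omega)] at hK
  -- `σ` comes from the complement
  have h1 : ∀ x, (σ : Equiv.Perm κ) x ≠ i ↔ x ≠ i := fun x => by
    rw [not_iff_not]
    constructor
    · intro hx
      exact (σ : Equiv.Perm κ).injective (hx.trans hσ.symm)
    · rintro rfl; exact hσ
  have h3 : Equiv.Perm.ofSubtype ((σ : Equiv.Perm κ).subtypePerm (p := fun j => j ≠ i) h1) = (σ : Equiv.Perm κ) :=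
    Equiv.Perm.ofSubtype_subtypePerm (p := fun j => j ≠ i) h1 (fun x hx hxi => hx (by rw [hxi, hσ]))
  have h4 : (σ : Equiv.Perm κ).subtypePerm (p := fun j => j ≠ i) h1 ∈ alternatingGroup {j // j ≠ i} := by
    rw [Equiv.Perm.mem_alternatingGroup, ← Equiv.Perm.sign_ofSubtype, h3]
    exact σ.2
  have h5 : ψ ⟨_, h4⟩ = σ := Subtype.ext h3
  exact hK (Subgroup.mem_top ⟨_, h4⟩) g (by rw [h5]; exact hg)

/-- an equivariant choice of lifts -/
theorem om_lifts (h : PR ρ π) (h6 : 6 ≤ Fintype.card κ) (s : κ → S) (p : alternatingGroup κ →* S)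
    (hp : ∀ σ i, p σ * s i * (p σ)⁻¹ = s ((σ : Equiv.Perm κ) i)) :
    ∃ t : κ → G, (∀ i, π (t i) = s i) ∧ ∀ (σ : alternatingGroup κ) g, π g = p σ → ∀ i,
      g * t i * g⁻¹ = t ((σ : Equiv.Perm κ) i) := by
  classical
  have : Nonempty κ := by rw [← Fintype.card_pos_iff]; omega
  obtain ⟨i0⟩ := this
  obtain ⟨t0, ht0⟩ := h.surj (s i0)
  have hσ : ∀ i, ∃ σ : alternatingGroup κ, (σ : Equiv.Perm κ) i0 = i := by
    intro i
    obtain ⟨σ, hσ, e⟩ := exists_alt_map (κ := κ) (by omega) (J := {i0}) (J' := {i}) (by simp)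
    refine ⟨⟨σ, hσ⟩, ?_⟩
    have := congrArg (fun K : Finset κ => i ∈ K) e
    simp at this
    exact this.symm
  choose σ hσ using hσ
  choose g hg using fun i => h.surj (p (σ i))
  refine ⟨fun i => g i * t0 * (g i)⁻¹, fun i => ?_, fun τ k hk i => ?_⟩
  · rw [map_mul, map_mul, map_inv, hg, ht0, hp, hσ]
  · dsimp only
    have hc : Commute ((g ((τ : Equiv.Perm κ) i))⁻¹ * k * g i) t0 := by
      refine om_fix h h6 s p hp (i := i0) (σ := (σ ((τ : Equiv.Perm κ) i))⁻¹ * τ * σ i) ?_ ?_ ht0
      · show ((σ ((τ : Equiv.Perm κ) i) : Equiv.Perm κ))⁻¹ ((τ : Equiv.Perm κ) ((σ i : Equiv.Perm κ) i0)) = i0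
        rw [hσ, Equiv.Perm.inv_eq_iff_eq, hσ]
      · rw [map_mul, map_mul, map_inv, hg, hg, hk, map_mul, map_mul, map_inv]
    have e := hc.eq
    have e2 : k * (g i * t0 * (g i)⁻¹) * k⁻¹ =
        g ((τ : Equiv.Perm κ) i) * (((g ((τ : Equiv.Perm κ) i))⁻¹ * k * g i) * t0) * ((g i)⁻¹ * k⁻¹) := by group
    rw [e2, e]
    group

omit [DecidableEq κ] in
/-- pairwise anticommuting lifts: `2^m ∣ dim V` -/
theorem om_cliff [FiniteDimensional F V] (h : PR ρ π) (h2 : (2 : F) ≠ 0) {m : ℕ} {t : κ → G} {z l : G}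
    (hz : π z = 1) (hz2 : z * z = 1) (hzn : ∀ v, ρ z v = -v) (hl : π l = 1) (htt : ∀ i, t i * t i = l)
    (hac : ∀ i j, i ≠ j → t i * t j = z * (t j * t i)) (hm : 2 * (m + 1) ≤ Fintype.card κ) (hV : 0 < finrank F V) :
    2 ^ m ∣ finrank F V := by
  classical
  obtain ⟨e⟩ : Nonempty (Fin (m + 1) × Fin 2 ↪ κ) := by
    rw [Function.Embedding.nonempty_iff_card_le]
    simp; omega
  have cz := h.central hz
  have cl := h.central hl
  obtain ⟨lam, hlam⟩ := h.scal l hl
  have : Nontrivial V := Module.nontrivial_of_finrank_pos hV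
  have hlam0 : lam ≠ 0 := by
    rintro rfl
    obtain ⟨v, hv⟩ := exists_ne (0 : V)
    exact hv ((ρ l).map_eq_zero_iff.1 (by rw [hlam, zero_smul]))
  have ρmul : ∀ g k v, ρ (g * k) v = ρ g (ρ k v) := fun g k v => by rw [map_mul, LinearEquiv.mul_apply]
  set f : Fin (m + 1) → G := fun k => t (e (k, 0)) * t (e (k, 1)) with hf
  have ene : ∀ {a b : Fin (m + 1) × Fin 2}, a ≠ b → e a ≠ e b := fun hab h' => hab (e.injective h')
  -- `t b` commutes with `f k` if `b` is not in the pair `k`
  have tf : ∀ b k, b ≠ e (k, 0) → b ≠ e (k, 1) → Commute (t b) (f k) := by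
    intro b k h0 h1
    show t b * (t (e (k, 0)) * t (e (k, 1))) = t (e (k, 0)) * t (e (k, 1)) * t b
    rw [← mul_assoc, hac _ _ h0, mul_assoc, mul_assoc, hac _ _ h1, ← mul_assoc (t (e (k, 0))), ← (cz _).eq,
      mul_assoc, ← mul_assoc z z, hz2, one_mul, mul_assoc]
  have ff : ∀ k k', k ≠ k' → Commute (f k) (f k') := fun k k' hk =>
    (tf _ _ (ene (by simp [hk])) (ene (by simp [hk]))).mul_left (tf _ _ (ene (by simp [hk])) (ene (by simp [hk])))
  have ff' : ∀ k k', Commute (f k) (f k') := fun k k' => by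
    by_cases hk : k = k'
    · rw [hk]
    · exact ff k k' hk
  have fsq : ∀ k, f k * f k = z * (l * l) := by
    intro k
    show t (e (k, 0)) * t (e (k, 1)) * (t (e (k, 0)) * t (e (k, 1))) = _
    have h01 : e (k, (1 : Fin 2)) ≠ e (k, 0) := ene (by simp)
    calc t (e (k, 0)) * t (e (k, 1)) * (t (e (k, 0)) * t (e (k, 1)))
        = t (e (k, 0)) * (t (e (k, 1)) * t (e (k, 0))) * t (e (k, 1)) := by simp only [mul_assoc]
      _ = t (e (k, 0)) * (z * (t (e (k, 0)) * t (e (k, 1)))) * t (e (k, 1)) := by rw [hac _ _ h01]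
      _ = z * ((t (e (k, 0)) * t (e (k, 0))) * (t (e (k, 1)) * t (e (k, 1)))) := by
          rw [← mul_assoc (t (e (k, 0))) z, ← (cz _).eq]; simp only [mul_assoc]
      _ = z * (l * l) := by rw [htt, htt]
  -- the involutions
  have d4 : ∀ k : Fin m, (f 0 * f k.succ) * (f 0 * f k.succ) = (l * l) * (l * l) := by
    intro k
    calc (f 0 * f k.succ) * (f 0 * f k.succ) = f 0 * (f k.succ * f 0) * f k.succ := by simp only [mul_assoc]
      _ = (f 0 * f 0) * (f k.succ * f k.succ) := by rw [(ff' k.succ 0).eq]; simp only [mul_assoc]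
      _ = z * (l * l) * (z * (l * l)) := by rw [fsq, fsq]
      _ = (z * z) * ((l * l) * (l * l)) := by
          rw [mul_assoc z, ← mul_assoc (l * l) z, ← (cz (l * l)).eq]; simp only [mul_assoc]
      _ = (l * l) * (l * l) := by rw [hz2, one_mul]
  set c : Fin m → V →ₗ[F] V := fun k => (lam⁻¹ * lam⁻¹) • (ρ (f 0 * f k.succ) : V →ₗ[F] V) with hc
  have cv : ∀ k v, c k v = (lam⁻¹ * lam⁻¹) • ρ (f 0 * f k.succ) v := fun k v => rfl
  have hdvd := two_pow_dvd (c := c) h2 ?_ ?_ (fun k => ρ (t (e (k.succ, 1)))) ?_ ?_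
  · rwa [Fintype.card_fin] at hdvd
  · intro k v
    rw [cv, cv, map_smul, ← ρmul, d4, ρmul, ρmul, ρmul, hlam, hlam, hlam, hlam]
    simp only [smul_smul]
    have : lam⁻¹ * lam⁻¹ * (lam⁻¹ * lam⁻¹) * (lam * (lam * (lam * lam))) = 1 := by field_simp
    rw [show lam⁻¹ * lam⁻¹ * (lam⁻¹ * lam⁻¹ * (lam * (lam * (lam * lam)))) =
      lam⁻¹ * lam⁻¹ * (lam⁻¹ * lam⁻¹) * (lam * (lam * (lam * lam))) by ring, this, one_smul]
  · intro k k' v
    have hcom : Commute (f 0 * f k.succ) (f 0 * f k'.succ) :=
      ((ff' _ _).mul_right (ff' _ _)).mul_left ((ff' _ _).mul_right (ff' _ _))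
    rw [cv, cv, cv, cv, map_smul, map_smul, ← ρmul, ← ρmul, hcom.eq]
  · intro k k' hk v
    have hcom : Commute (t (e (k'.succ, 1))) (f 0 * f k.succ) := by
      refine (tf _ _ (ene ?_) (ene ?_)).mul_right (tf _ _ (ene ?_) (ene ?_))
      · simp
      · simp
      · simp
      · simp only [ne_eq, Prod.mk.injEq, Fin.succ_inj, and_true]
        exact fun h' => hk h'.symm
    rw [cv, cv, map_smul, ← ρmul, ← ρmul, hcom.eq]
  · intro k v
    have h1 : Commute (t (e (k.succ, 1))) (f 0) := by
      refine tf _ _ (ene ?_) (ene ?_)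
      · simp
      · simp
    have h3 : t (e (k.succ, 1)) * f k.succ = z * (f k.succ * t (e (k.succ, 1))) := by
      show t (e (k.succ, 1)) * (t (e (k.succ, 0)) * t (e (k.succ, 1))) =
        z * (t (e (k.succ, 0)) * t (e (k.succ, 1)) * t (e (k.succ, 1)))
      rw [← mul_assoc, hac _ _ (ene (by simp))]
      simp only [mul_assoc]
    have h4 : t (e (k.succ, 1)) * (f 0 * f k.succ) = z * ((f 0 * f k.succ) * t (e (k.succ, 1))) := by
      rw [← mul_assoc, h1.eq, mul_assoc, h3, ← mul_assoc (f 0) z, ← (cz (f 0)).eq]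
      simp only [mul_assoc]
    rw [cv, cv, map_smul, ← ρmul, h4, ρmul, hzn, ρmul, smul_neg]

theorem two_pow_not_dvd {m : ℕ} (hm : 3 ≤ m) : ¬ 2 ^ m ∣ 2 * m + 4 := by
  intro h
  rcases Nat.eq_or_lt_of_le hm with rfl | h4
  · revert h; decide
  · have h1 : ∀ m : ℕ, 4 ≤ m → 2 * m + 4 < 2 ^ m := by
      intro m hm
      induction m, hm using Nat.le_induction with
      | base => norm_num
      | succ k hk ih => rw [pow_succ]; omega
    exact absurd (Nat.le_of_dvd (by omega) h) (not_le.2 (h1 m (by omega)))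

theorem om_abs [FiniteDimensional F V] (h : PR ρ π) (h2 : (2 : F) ≠ 0) {n : ℕ} (hn : 4 ≤ n)
    (hκ : Fintype.card κ = 2 * n + 1) (hdim : finrank F V = 2 * n + 2)
    (hirr : ∀ U : Submodule F V, (∀ g, ∀ v ∈ U, ρ g v ∈ U) → U = ⊥ ∨ U = ⊤)
    (s : κ → S) (hs2 : ∀ i, s i * s i = 1) (hss : ∀ i j, Commute (s i) (s j))
    (hprod : ((Finset.univ : Finset κ).toList.map s).prod = 1) (hs1 : ∀ i, s i ≠ 1)
    (p : alternatingGroup κ →* S) (hp : ∀ σ i, p σ * s i * (p σ)⁻¹ = s ((σ : Equiv.Perm κ) i))
    (hgen : ∀ H : Subgroup S, (∀ i j, i ≠ j → ∀ x, Commute x (s i) → Commute x (s j) → x ∈ H) → H = ⊤) : False := by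
  classical
  obtain ⟨t, πt, ht⟩ := om_lifts h (by omega) s p hp
  have hV : 0 < finrank F V := by omega
  have : Nontrivial V := Module.nontrivial_of_finrank_pos hV
  obtain ⟨v0, hv0⟩ := exists_ne (0 : V)
  have ρmul : ∀ g k v, ρ (g * k) v = ρ g (ρ k v) := fun g k v => by rw [map_mul, LinearEquiv.mul_apply]
  have h3 : 3 ≤ Fintype.card κ := by omega
  have : Nonempty κ := by rw [← Fintype.card_pos_iff]; omega
  obtain ⟨i0⟩ := this
  -- the common square
  obtain ⟨l, hl, hll⟩ : ∃ l, π l = 1 ∧ ∀ i, t i * t i = l := by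
    refine ⟨t i0 * t i0, by rw [map_mul, πt, hs2], fun i => ?_⟩
    obtain ⟨σ, hσ, e⟩ := exists_alt_map (κ := κ) h3 (J := {i0}) (J' := {i}) (by simp)
    have e' : σ i0 = i := by
      have := congrArg (fun K : Finset κ => i ∈ K) e
      simp at this
      exact this.symm
    obtain ⟨g, hg⟩ := h.surj (p ⟨σ, hσ⟩)
    have e1 := ht ⟨σ, hσ⟩ g hg i0
    simp only [e'] at e1
    have cl := h.central (z := t i0 * t i0) (by rw [map_mul, πt, hs2]) g
    rw [← e1]
    calc g * t i0 * g⁻¹ * (g * t i0 * g⁻¹) = g * (t i0 * t i0) * g⁻¹ := by group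
      _ = t i0 * t i0 := by rw [← cl.eq, mul_inv_cancel_right]
  have cl := h.central hl
  obtain ⟨lam, hlam⟩ := h.scal l hl
  have hlam0 : lam ≠ 0 := by
    rintro rfl
    exact hv0 ((ρ l).map_eq_zero_iff.1 (by rw [hlam, zero_smul]))
  -- scalars of square 1
  have sgn : ∀ z, π z = 1 → z * z = 1 → z = 1 ∨ ∀ v, ρ z v = -v := by
    intro z hz hz2
    obtain ⟨a, ha⟩ := h.scal z hz
    have e : (a * a) • v0 = (1 : F) • v0 := by
      rw [mul_smul, ← ha, ← ha, ← ρmul, hz2, map_one, one_smul]; rfl
    have e2 := smul_left_injective F hv0 e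
    rcases mul_self_eq_one_iff.1 e2 with h1 | h1
    · left
      apply h.inj
      ext v
      rw [ha, h1, one_smul, map_one]; rfl
    · right
      intro v
      rw [ha, h1, neg_one_smul]
  -- the lifts commute
  have tt : ∀ i j, Commute (t i) (t j) := by
    by_contra hcon
    push Not at hcon
    obtain ⟨i, j, hij⟩ := hcon
    have hne : i ≠ j := by rintro rfl; exact hij (Commute.refl _)
    set z := h.cm (s i) (s j) with hz
    have hzπ : π z = 1 := h.cm_ker (hss i j)
    have hz2 : z * z = 1 := h.cm_sq (hs2 i) (hss i j)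
    have cz := h.central hzπ
    rcases sgn z hzπ hz2 with h1 | h1
    · exact hij (h.commute_of_cm (by rw [πt, πt]; exact h1))
    · have hac : ∀ i' j', i' ≠ j' → t i' * t j' = z * (t j' * t i') := by
        intro i' j' hij'
        obtain ⟨σ, hσ, e1, e2⟩ := exists_alt_pair (κ := κ) (by omega) hne hij'
        obtain ⟨g, hg⟩ := h.surj (p ⟨σ, hσ⟩)
        have f1 := ht ⟨σ, hσ⟩ g hg i
        have f2 := ht ⟨σ, hσ⟩ g hg j
        simp only [e1] at f1
        simp only [e2] at f2
        have e0 : t i * t j = z * (t j * t i) := by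
          have := h.comm_eq_cm (πt i) (πt j)
          rw [commutatorElement_def] at this
          rw [hz, ← this]; group
        rw [← f1, ← f2]
        calc g * t i * g⁻¹ * (g * t j * g⁻¹) = g * (t i * t j) * g⁻¹ := by group
          _ = g * (z * (t j * t i)) * g⁻¹ := by rw [e0]
          _ = z * (g * t j * g⁻¹ * (g * t i * g⁻¹)) := by rw [← mul_assoc g, ← (cz g).eq]; group
      obtain ⟨m, rfl⟩ := Nat.exists_eq_add_of_le' (show 1 ≤ n by omega)
      have hd := om_cliff h h2 (m := m) (t := t) hzπ hz2 h1 hl hll hac (by omega) hV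
      rw [hdim] at hd
      exact two_pow_not_dvd (m := m) (by omega) (by convert hd using 1; ring)
  -- the product of all lifts
  have hRsq : ∀ L : List κ, (L.map t).prod * (L.map t).prod = l ^ L.length := by
    intro L
    induction L with
    | nil => simp
    | cons i L ih =>
      have hc : Commute (t i) (L.map t).prod := Commute.list_prod_right _ _ (fun x hx => by
        obtain ⟨j, -, rfl⟩ := List.mem_map.1 hx
        exact tt i j)
      rw [List.map_cons, List.prod_cons, List.length_cons, pow_succ']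
      calc t i * (L.map t).prod * (t i * (L.map t).prod)
          = t i * ((L.map t).prod * t i) * (L.map t).prod := by simp only [mul_assoc]
        _ = (t i * t i) * ((L.map t).prod * (L.map t).prod) := by rw [← hc.eq]; simp only [mul_assoc]
        _ = l * l ^ L.length := by rw [hll, ih]
  obtain ⟨μ, hμ⟩ := h.scal (((Finset.univ : Finset κ).toList.map t).prod) (by
    rw [map_list_prod, List.map_map, ← hprod]
    congr 2
    funext i
    exact πt i)
  have hμ2 : μ * μ = lam ^ (2 * n + 1) := by
    have e := hRsq (Finset.univ : Finset κ).toList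
    rw [Finset.length_toList, Finset.card_univ, hκ] at e
    have hpow : ∀ (k : ℕ) v, ρ (l ^ k) v = lam ^ k • v := by
      intro k
      induction k with
      | zero => intro v; simp
      | succ k ih => intro v; rw [pow_succ', ρmul, ih, hlam, smul_smul, pow_succ']
    have e2 := congrArg (fun g => ρ g v0) e
    rw [ρmul, hμ, hμ, smul_smul, hpow] at e2
    exact smul_left_injective F hv0 e2
  have hμ0 : μ ≠ 0 := by
    rintro rfl
    rw [zero_mul] at hμ2
    exact pow_ne_zero _ hlam0 hμ2.symm
  set θ : F := μ / lam ^ n with hθ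
  have hθ0 : θ ≠ 0 := div_ne_zero hμ0 (pow_ne_zero _ hlam0)
  have hθ2 : θ * θ = lam := by
    rw [hθ, div_mul_div_comm, hμ2, ← pow_add, div_eq_iff (pow_ne_zero _ hlam0)]
    ring
  have hθN : θ ^ (2 * n + 1) = μ := by
    rw [pow_succ, pow_mul, pow_two, hθ2, hθ, mul_div_cancel₀ _ (pow_ne_zero _ hlam0)]
  -- the involutions
  set c : κ → V →ₗ[F] V := fun i => θ⁻¹ • (ρ (t i) : V →ₗ[F] V) with hc
  have cv : ∀ i v, c i v = θ⁻¹ • ρ (t i) v := fun i v => rfl
  have tv : ∀ i v, ρ (t i) v = θ • c i v := fun i v => by rw [cv, smul_smul, mul_inv_cancel₀ hθ0, one_smul]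
  have hcc2 : ∀ i v, c i (c i v) = v := fun i v => by
    rw [cv, cv, map_smul, ← ρmul, hll, hlam, smul_smul, smul_smul, ← hθ2]
    have : θ⁻¹ * θ⁻¹ * (θ * θ) = 1 := by field_simp
    rw [this, one_smul]
  have hcc : ∀ i j v, c i (c j v) = c j (c i v) := fun i j v => by
    rw [cv, cv, cv, cv, map_smul, map_smul, ← ρmul, ← ρmul, (tt i j).eq]
  have hg : ∀ σ ∈ alternatingGroup κ, ∃ g : V ≃ₗ[F] V, ∀ i v, g (c i v) = c (σ i) (g v) := by
    intro σ hσ
    obtain ⟨g, hg⟩ := h.surj (p ⟨σ, hσ⟩)
    refine ⟨ρ g, fun i v => ?_⟩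
    have e := ht ⟨σ, hσ⟩ g hg i
    simp only at e
    rw [cv, cv, map_smul, ← ρmul, ← ρmul, ← e]
    congr 3
    group
  have par : ∀ J : Finset κ, finrank F (W c J) ≠ 0 → Even J.card := by
    intro J hJ
    obtain ⟨v, hv, hv0'⟩ := Submodule.exists_mem_ne_zero_of_ne_bot (p := W c J) (by
      rintro hb; rw [hb, finrank_bot] at hJ; exact hJ rfl)
    have e1 := list_prod_apply (ρ := ρ) (C := t) (J := J) (v := v) (θ := θ) (fun i => by
      rw [tv, hv i]; split_ifs <;> simp) (Finset.univ : Finset κ).toList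
    rw [hμ, list_prod_sign, hκ, hθN] at e1
    have e2 := smul_left_injective F hv0' e1
    by_contra hodd
    rw [Nat.not_even_iff_odd] at hodd
    rw [hodd.neg_one_pow] at e2
    have e3 : (2 : F) * μ = 0 := by linear_combination e2
    rcases mul_eq_zero.1 e3 with h' | h'
    · exact h2 h'
    · exact hμ0 h'
  have hmid : ∀ J : Finset κ, 2 ≤ J.card → J.card + 2 ≤ Fintype.card κ → finrank F (W c J) = 0 := by
    intro J h1 h4
    by_contra h0
    have h5 := choose_mul_le h2 hcc h3 hg J
    have h6 := lt_choose_two (n := Fintype.card κ) (k := J.card) (by omega) h1 h4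
    have h7 : 1 ≤ finrank F (W c J) := Nat.pos_of_ne_zero h0
    have h8 := Nat.mul_le_mul_left ((Fintype.card κ).choose J.card) h7
    omega
  set KK : κ → Finset κ := fun i => Finset.univ.erase i with hKK
  have cardK : ∀ i, (KK i).card = 2 * n := fun i => by
    rw [hKK]; dsimp only; rw [Finset.card_erase_of_mem (Finset.mem_univ i), Finset.card_univ, hκ]; omega
  have hd1 : ∀ i, finrank F (W c (KK i)) = finrank F (W c (KK i0)) := fun i =>
    finrank_W_of_card h3 hg (by rw [cardK, cardK])
  have KKinj : Function.Injective KK := fun i j hij => by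
    by_contra hne
    have : j ∈ KK i := Finset.mem_erase.2 ⟨Ne.symm hne, Finset.mem_univ j⟩
    rw [hij] at this
    exact (Finset.mem_erase.1 this).1 rfl
  have htot := sum_eq h2 hcc2 hcc
  set TT : Finset (Finset κ) := insert ∅ (Finset.univ.image KK) with hTT
  have hsub0 : ∀ J : Finset κ, J ∉ TT → finrank F (W c J) = 0 := by
    intro J hJ
    by_contra h0
    have hev := par J h0
    apply h0
    apply hmid J
    · by_contra hlt
      apply hJ
      have : J.card = 0 ∨ J.card = 1 := by omega
      rcases this with h1 | h1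
      · rw [Finset.card_eq_zero] at h1
        rw [hTT, h1]; exact Finset.mem_insert_self _ _
      · rw [h1] at hev; exact absurd hev (by decide)
    · by_contra hlt
      apply hJ
      have h5 := Finset.card_le_univ J
      obtain ⟨k, hk⟩ := hev
      have h6 : J.card = 2 * n := by omega
      have h7 : Jᶜ.card = 1 := by rw [Finset.card_compl]; omega
      obtain ⟨i, hi⟩ := Finset.card_eq_one.1 h7
      rw [hTT]
      refine Finset.mem_insert_of_mem (Finset.mem_image.2 ⟨i, Finset.mem_univ i, ?_⟩)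
      rw [hKK]; dsimp only
      rw [← compl_compl J, hi]
      ext x; simp
  have hsub : ∑ J ∈ TT, finrank F (W c J) = ∑ J : Finset κ, finrank F (W c J) :=
    Finset.sum_subset (Finset.subset_univ _) fun J _ hJ => hsub0 J hJ
  have hsum : ∑ J ∈ TT, finrank F (W c J) = finrank F (W c ∅) + (2 * n + 1) * finrank F (W c (KK i0)) := by
    rw [hTT, Finset.sum_insert, Finset.sum_image]
    · rw [Finset.sum_congr rfl fun i _ => hd1 i, Finset.sum_const, Finset.card_univ, smul_eq_mul, hκ]
    · intro i _ j _ hij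
      exact KKinj hij
    · rw [Finset.mem_image]
      rintro ⟨i, -, hi⟩
      have := congrArg Finset.card hi
      rw [cardK, Finset.card_empty] at this; omega
  rw [← hsub, hsum, hdim] at htot
  have hd1le : finrank F (W c (KK i0)) ≤ 1 := by
    by_contra hlt
    have : (2 * n + 1) * 2 ≤ (2 * n + 1) * finrank F (W c (KK i0)) := Nat.mul_le_mul_left _ (by omega)
    omega
  have hWbot : ∀ J, J ∉ TT → W c J = ⊥ := fun J hJ => Submodule.finrank_eq_zero.1 (hsub0 J hJ)
  have hd1e : finrank F (W c (KK i0)) = 1 := by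
    by_contra hne1
    have h0 : finrank F (W c (KK i0)) = 0 := by omega
    apply hs1 i0
    rw [← πt]
    refine h.conv _ θ fun v => ?_
    rw [tv]
    have hall : ∀ J, W c J ≤ LinearMap.ker (c i0 - LinearMap.id) := by
      intro J w hw
      rw [LinearMap.mem_ker, LinearMap.sub_apply, LinearMap.id_apply, sub_eq_zero]
      by_cases hJ : J ∈ TT
      · rw [hTT, Finset.mem_insert, Finset.mem_image] at hJ
        rcases hJ with rfl | ⟨i, -, rfl⟩
        · exact W_pos hw (by simp)
        · have h00 : finrank F (W c (KK i)) = 0 := by rw [hd1, h0]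
          rw [Submodule.finrank_eq_zero] at h00
          rw [h00] at hw
          rw [(Submodule.mem_bot F).1 hw]; simp
      · rw [hWbot J hJ] at hw
        rw [(Submodule.mem_bot F).1 hw]; simp
    have h10 : (⊤ : Submodule F V) ≤ LinearMap.ker (c i0 - LinearMap.id) := by
      rw [← iSup_W h2 hcc2 hcc]
      exact iSup_le hall
    have h11 := h10 (Submodule.mem_top (x := v))
    rw [LinearMap.mem_ker, LinearMap.sub_apply, LinearMap.id_apply, sub_eq_zero] at h11
    rw [h11]
  have hL1 : finrank F (W c ∅) = 1 := by rw [hd1e] at htot; omega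
  -- elements centralising `s i` centralise `t i`
  have cent : ∀ i g, Commute (π g) (s i) → Commute g (t i) := by
    intro i g hgi
    apply h.commute_of_cm
    rw [πt]
    -- `z = ⁅t i, g⁆`
    have hzπ : π (h.cm (s i) (π g)) = 1 := h.cm_ker hgi.symm
    have hz2 : h.cm (s i) (π g) * h.cm (s i) (π g) = 1 := h.cm_sq (hs2 i) hgi.symm
    have hcomm := h.comm_eq_cm (πt i) (rfl : π g = π g)
    rcases sgn _ hzπ hz2 with h1 | h1
    · rw [h1] at hcomm
      rw [← πt i]
      exact h.cm_one_of_commute (commutatorElement_eq_one_iff_commute.1 hcomm).symm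
    · exfalso
      have e1 : ∀ v, ρ g (c i v) = - c i (ρ g v) := by
        intro v
        have e2 : t i * g = h.cm (s i) (π g) * (g * t i) := by
          rw [← hcomm, commutatorElement_def]; group
        have e3 : ρ (t i) (ρ g v) = - ρ g (ρ (t i) v) := by
          rw [← ρmul, e2, ρmul, h1, ρmul]
        rw [cv, cv, map_smul, e3, smul_neg, neg_neg]
      set Um : Submodule F V := LinearMap.ker (c i + LinearMap.id) with hUm
      set Up : Submodule F V := LinearMap.ker (c i - LinearMap.id) with hUp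
      have memm : ∀ v, v ∈ Um ↔ c i v = -v := fun v => by
        rw [hUm, LinearMap.mem_ker, LinearMap.add_apply, LinearMap.id_apply, add_eq_zero_iff_eq_neg]
      have memp : ∀ v, v ∈ Up ↔ c i v = v := fun v => by
        rw [hUp, LinearMap.mem_ker, LinearMap.sub_apply, LinearMap.id_apply, sub_eq_zero]
      have d1 : finrank F Um ≤ finrank F Up := by
        have hle : Um.map (ρ g : V →ₗ[F] V) ≤ Up := by
          rintro w ⟨v, hv, rfl⟩
          have hv' := (memm v).1 hv
          rw [memp]
          have e4 := e1 v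
          rw [hv', map_neg, neg_inj] at e4
          exact e4.symm
        have e5 : finrank F (Um.map (ρ g : V →ₗ[F] V)) = finrank F Um :=
          (LinearEquiv.finrank_eq ((ρ g).submoduleMap Um)).symm
        rw [← e5]
        exact Submodule.finrank_mono hle
      have d2 : Um ⊓ Up = ⊥ := by
        rw [eq_bot_iff]
        rintro v ⟨hv1, hv3⟩
        rw [SetLike.mem_coe, memm] at hv1
        rw [SetLike.mem_coe, memp] at hv3
        rw [hv3] at hv1
        have : (2 : F) • v = 0 := by rw [two_smul]; nth_rw 2 [hv1]; rw [add_neg_cancel]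
        rcases smul_eq_zero.1 this with h' | h'
        · exact absurd h' h2
        · rw [Submodule.mem_bot]; exact h'
      have d3 := Submodule.finrank_sup_add_finrank_inf_eq Um Up
      rw [d2, finrank_bot, add_zero] at d3
      have d4 : finrank F ↥(Um ⊔ Up) ≤ finrank F V := Submodule.finrank_le _
      have d5 := sum_le h2 hcc ((Finset.univ.erase i).image KK) Um (by
        intro J hJ
        obtain ⟨j, hj, rfl⟩ := Finset.mem_image.1 hJ
        intro v hv
        rw [memm]
        exact W_neg hv (Finset.mem_erase.2 ⟨(Finset.mem_erase.1 hj).1.symm, Finset.mem_univ i⟩))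
      rw [Finset.sum_image (fun a _ b _ hab => KKinj hab), Finset.sum_congr rfl (fun j _ => (hd1 j).trans hd1e),
        Finset.sum_const, Finset.card_erase_of_mem (Finset.mem_univ i), Finset.card_univ, hκ, smul_eq_mul] at d5
      omega
  -- the line `L`
  have four : (4 : F) ≠ 0 := by
    have : (4 : F) = 2 * 2 := by norm_num
    rw [this]; exact mul_ne_zero h2 h2
  have proj : ∀ i j, i ≠ j → ∀ v, c i v = v → c j v = v → v ∈ W c ∅ := by
    intro i j hij v hvi hvj
    set T : V →ₗ[F] V := (c i + LinearMap.id).comp (c j + LinearMap.id) with hT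
    have Tv : ∀ w, T w = c i (c j w + w) + (c j w + w) := fun w => rfl
    have Tv' : ∀ w, T w = c j (c i w + w) + (c i w + w) := fun w => by
      rw [Tv, map_add, map_add, hcc]; abel
    have hall : ∀ J, W c J ≤ (W c ∅).comap T := by
      intro J w hw
      rw [Submodule.mem_comap]
      by_cases hJ : J ∈ TT
      · rw [hTT, Finset.mem_insert, Finset.mem_image] at hJ
        rcases hJ with rfl | ⟨k, -, rfl⟩
        · rw [Tv, W_pos hw (by simp), map_add, W_pos hw (by simp)]
          exact Submodule.add_mem _ (Submodule.add_mem _ hw hw) (Submodule.add_mem _ hw hw)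
        · by_cases hik : i = k
          · have : j ∈ KK k := Finset.mem_erase.2 ⟨fun e => hij (by rw [hik, e]), Finset.mem_univ j⟩
            rw [Tv, W_neg hw this, neg_add_cancel, map_zero, add_zero]
            exact Submodule.zero_mem _
          · have : i ∈ KK k := Finset.mem_erase.2 ⟨hik, Finset.mem_univ i⟩
            rw [Tv', W_neg hw this, neg_add_cancel, map_zero, add_zero]
            exact Submodule.zero_mem _
      · rw [hWbot J hJ] at hw
        rw [(Submodule.mem_bot F).1 hw, map_zero]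
        exact Submodule.zero_mem _
    have h10 : (⊤ : Submodule F V) ≤ (W c ∅).comap T := by
      rw [← iSup_W h2 hcc2 hcc]
      exact iSup_le hall
    have h11 := h10 (Submodule.mem_top (x := v))
    rw [Submodule.mem_comap, Tv, hvj, map_add, hvi] at h11
    have h12 : v + v + (v + v) = (4 : F) • v := by
      rw [show (4 : F) = 1 + 1 + (1 + 1) by norm_num, add_smul, add_smul, one_smul]
    rw [h12] at h11
    have h13 := Submodule.smul_mem _ (4 : F)⁻¹ h11
    rwa [smul_smul, inv_mul_cancel₀ four, one_smul] at h13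
  have presL : ∀ i j, i ≠ j → ∀ g, Commute (π g) (s i) → Commute (π g) (s j) → ∀ v ∈ W c ∅, ρ g v ∈ W c ∅ := by
    intro i j hij g hgi hgj v hv
    have e : ∀ k, Commute (π g) (s k) → c k (ρ g v) = ρ g v := by
      intro k hk
      have e1 := cent k g hk
      have e2 : c k (ρ g v) = ρ g (c k v) := by
        rw [cv, cv, map_smul, ← ρmul, ← ρmul, e1.eq]
      rw [e2, W_pos hv (by simp)]
    exact proj i j hij _ (e i hgi) (e j hgj)
  let H : Subgroup S :=
    { carrier := {x | ∀ g, π g = x → ∀ v, v ∈ W c ∅ ↔ ρ g v ∈ W c ∅}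
      mul_mem' := by
        intro x y hx hy g hg v
        obtain ⟨g1, hg1⟩ := h.surj x
        have e : g = g1 * (g1⁻¹ * g) := by group
        have hg2 : π (g1⁻¹ * g) = y := by rw [map_mul, map_inv, hg1, hg, inv_mul_cancel_left]
        rw [e, ρmul, ← hx g1 hg1, ← hy _ hg2]
      one_mem' := by
        intro g hg v
        obtain ⟨a, ha⟩ := h.scal g hg
        have ha0 : a ≠ 0 := by
          rintro rfl
          exact hv0 ((ρ g).map_eq_zero_iff.1 (by rw [ha, zero_smul]))
        rw [ha]
        constructor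
        · intro hv; exact Submodule.smul_mem _ _ hv
        · intro hv
          have := Submodule.smul_mem _ a⁻¹ hv
          rwa [smul_smul, inv_mul_cancel₀ ha0, one_smul] at this
      inv_mem' := by
        intro x hx g hg v
        have e := hx g⁻¹ (by rw [map_inv, hg, inv_inv]) (ρ g v)
        rw [← ρmul, inv_mul_cancel, map_one] at e
        exact e.symm }
  have hH : H = ⊤ := by
    apply hgen
    intro i j hij x hxi hxj g hg v
    constructor
    · exact presL i j hij g (by rw [hg]; exact hxi) (by rw [hg]; exact hxj) v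
    · intro hv
      have := presL i j hij g⁻¹ (by rw [map_inv, hg]; exact hxi.inv_left) (by rw [map_inv, hg]; exact hxj.inv_left) _ hv
      rwa [← ρmul, inv_mul_cancel, map_one] at this
  rcases hirr (W c ∅) (fun g v hv => by
    have : π g ∈ H := by rw [hH]; exact Subgroup.mem_top _
    exact (this g rfl v).1 hv) with hb | hb
  · rw [hb, finrank_bot] at hL1; omega
  · rw [hb, finrank_top] at hL1; omega

end omabs

end Cfsg.Agent.H210.DoRes
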