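import Cfsg.Agent.H210.DoRes.Proj

/-!
# No projective representation of degree `2n+2` for a group like `PSp_2n`, abstract part (helper210)
-/

set_option autoImplicit false

namespace Cfsg.Agent.H210.DoRes

open Module
open scoped commutatorElement

section spabs

variable {F V G S T κ : Type*} [Field F] [AddCommGroup V] [Module F V] [FiniteDimensional F V]
  [Group G] [Group S] [Group T] [Fintype κ] [DecidableEq κ] {ρ : G →* (V ≃ₗ[F] V)} {π : G →* S}

theorem sp_abs (h : PR ρ π) (h2 : (2 : F) ≠ 0) (hn : 4 ≤ Fintype.card κ)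
    (hdim : finrank F V = 2 * Fintype.card κ + 2)
    (φ : κ → T →* S) (hφ : ∀ i j, i ≠ j → ∀ A B, Commute (φ i A) (φ j B))
    (hsym : ∀ σ ∈ alternatingGroup κ, ∃ w : S, ∀ i A, w * φ i A * w⁻¹ = φ (σ i) A)
    {a b x y x' y' : T} (ha : ⁅x, y⁆ = a) (hb : ⁅x', y'⁆ = b) (hab : ⁅a, b⁆ = a * a) (hb2 : b * b = a * a)
    (hprod : ((Finset.univ : Finset κ).toList.map fun i => φ i (a * a)).prod = 1)
    (hne : ∀ i k, i ≠ k → φ i (a * a) * φ k (a * a) ≠ 1) : False := by
  classical
  set A : κ → G := fun i => h.cm (φ i x) (φ i y) with hA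
  set B : κ → G := fun i => h.cm (φ i x') (φ i y') with hB
  set C : κ → G := fun i => ⁅A i, B i⁆ with hC
  have πA : ∀ i, π (A i) = φ i a := fun i => by rw [hA]; dsimp only; rw [h.π_cm, ← map_commutatorElement, ha]
  have πB : ∀ i, π (B i) = φ i b := fun i => by rw [hB]; dsimp only; rw [h.π_cm, ← map_commutatorElement, hb]
  have πC : ∀ i, π (C i) = φ i (a * a) := fun i => by
    rw [hC]; dsimp only; rw [map_commutatorElement, πA, πB, ← map_commutatorElement, hab]
  have hCcm : ∀ i, C i = h.cm (φ i a) (φ i b) := fun i => h.comm_eq_cm (πA i) (πB i)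
  -- commutation between different planes
  have AA : ∀ i j, i ≠ j → Commute (A i) (A j) := fun i j hij =>
    h.commute_cm (by rw [πA]; exact hφ i j hij _ _) (by rw [πA]; exact hφ i j hij _ _)
  have AB : ∀ i j, i ≠ j → Commute (A i) (B j) := fun i j hij =>
    h.commute_cm (by rw [πA]; exact hφ i j hij _ _) (by rw [πA]; exact hφ i j hij _ _)
  have BB : ∀ i j, i ≠ j → Commute (B i) (B j) := fun i j hij =>
    h.commute_cm (by rw [πB]; exact hφ i j hij _ _) (by rw [πB]; exact hφ i j hij _ _)
  -- squares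
  have sqA : ∀ i, ∃ z, π z = 1 ∧ A i * A i = z * C i := fun i =>
    h.exists_mul (by rw [map_mul, πA, πC, ← map_mul])
  have sqB : ∀ i, ∃ z, π z = 1 ∧ B i * B i = z * C i := fun i =>
    h.exists_mul (by rw [map_mul, πB, πC, ← map_mul, hb2])
  have AC : ∀ i j, Commute (A i) (C j) := by
    intro i j
    by_cases hij : i = j
    · subst hij
      obtain ⟨z, hz, e⟩ := sqA i
      have e' : C i = z⁻¹ * (A i * A i) := by rw [e, inv_mul_cancel_left]
      rw [e']
      exact ((h.central (by rw [map_inv, hz, inv_one]) (A i)).symm).mul_right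
        ((Commute.refl (A i)).mul_right (Commute.refl (A i)))
    · rw [hCcm]
      exact h.commute_cm (by rw [πA]; exact hφ i j hij _ _) (by rw [πA]; exact hφ i j hij _ _)
  have BC : ∀ i j, Commute (B i) (C j) := by
    intro i j
    by_cases hij : i = j
    · subst hij
      obtain ⟨z, hz, e⟩ := sqB i
      have e' : C i = z⁻¹ * (B i * B i) := by rw [e, inv_mul_cancel_left]
      rw [e']
      exact ((h.central (by rw [map_inv, hz, inv_one]) (B i)).symm).mul_right
        ((Commute.refl (B i)).mul_right (Commute.refl (B i)))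
    · rw [hCcm]
      exact h.commute_cm (by rw [πB]; exact hφ i j hij _ _) (by rw [πB]; exact hφ i j hij _ _)
  have CC : ∀ i j, Commute (C i) (C j) := by
    intro i j
    have hc : C i = A i * B i * (A i)⁻¹ * (B i)⁻¹ := commutatorElement_def _ _
    rw [hc]
    exact (((AC i j).mul_left (BC i j)).mul_left (AC i j).inv_left).mul_left (BC i j).inv_left
  have ABC : ∀ i, A i * B i = C i * (B i * A i) := by
    intro i
    have hc : C i = A i * B i * (A i)⁻¹ * (B i)⁻¹ := commutatorElement_def _ _
    rw [hc]; group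
  have C2 : ∀ i, C i * C i = 1 := by
    intro i
    obtain ⟨z, hz, e⟩ := sqA i
    have e1 : A i * B i * (A i)⁻¹ = C i * B i := by rw [ABC]; group
    have e2 : (A i * A i) * B i * (A i * A i)⁻¹ = C i * C i * B i := by
      calc (A i * A i) * B i * (A i * A i)⁻¹ = A i * (A i * B i * (A i)⁻¹) * (A i)⁻¹ := by group
        _ = A i * (C i * B i) * (A i)⁻¹ := by rw [e1]
        _ = C i * (A i * B i * (A i)⁻¹) := by rw [← mul_assoc (A i), (AC i i).eq]; group
        _ = C i * C i * B i := by rw [e1, mul_assoc]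
    have e3 : Commute (A i * A i) (B i) := by
      rw [e]
      exact (h.central hz (B i)).mul_left (BC i i).symm
    rw [e3.eq, mul_inv_cancel_right] at e2
    exact mul_eq_right.1 e2.symm
  -- symmetry
  have sym : ∀ σ ∈ alternatingGroup κ, ∃ g : G, (∀ i, g * A i * g⁻¹ = A (σ i)) ∧ (∀ i, g * C i * g⁻¹ = C (σ i)) := by
    intro σ hσ
    obtain ⟨w, hw⟩ := hsym σ hσ
    obtain ⟨g, rfl⟩ := h.surj w
    refine ⟨g, fun i => ?_, fun i => ?_⟩
    · show g * h.cm _ _ * g⁻¹ = h.cm _ _
      rw [h.conj_cm, hw, hw]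
    · rw [hCcm, hCcm, h.conj_cm, hw, hw]
  -- the linear involutions
  set c : κ → V →ₗ[F] V := fun i => (ρ (C i) : V →ₗ[F] V) with hcdef
  have cv : ∀ i v, c i v = ρ (C i) v := fun i v => rfl
  have ρmul : ∀ g k v, ρ (g * k) v = ρ g (ρ k v) := fun g k v => by rw [map_mul, LinearEquiv.mul_apply]
  have hcc2 : ∀ i v, c i (c i v) = v := fun i v => by
    rw [cv, cv, ← ρmul, C2, map_one]; rfl
  have hcc : ∀ i j v, c i (c j v) = c j (c i v) := fun i j v => by
    rw [cv, cv, cv, cv, ← ρmul, ← ρmul, (CC i j).eq]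
  have comm_c : ∀ {g : G} {j : κ}, Commute g (C j) → ∀ v, ρ g (c j v) = c j (ρ g v) := fun {g j} hg v => by
    rw [cv, cv, ← ρmul, ← ρmul, hg.eq]
  have pres : ∀ {g : G}, (∀ j, Commute g (C j)) → ∀ (I : Finset κ), ∀ v ∈ W c I, ρ g v ∈ W c I := by
    intro g hg I v hv j
    rw [← comm_c (hg j), hv j]
    split_ifs <;> simp
  have hg : ∀ σ ∈ alternatingGroup κ, ∃ g : V ≃ₗ[F] V, ∀ i v, g (c i v) = c (σ i) (g v) := by
    intro σ hσ
    obtain ⟨g, -, hgC⟩ := sym σ hσ
    refine ⟨ρ g, fun i v => ?_⟩
    rw [cv, cv, ← ρmul, ← ρmul, ← hgC]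
    congr 2
    group
  have h3 : 3 ≤ Fintype.card κ := by omega
  have inst : Nonempty κ := by
    rw [← Fintype.card_pos_iff]; omega
  obtain ⟨i0⟩ := inst
  -- a uniform scalar
  obtain ⟨z0, hz0, ez0⟩ := sqA i0
  have sqAll : ∀ i, A i * A i = z0 * C i := by
    intro i
    obtain ⟨σ, hσ, hσi⟩ : ∃ σ ∈ alternatingGroup κ, σ i0 = i := by
      obtain ⟨σ, hσ, e⟩ := exists_alt_map h3 (J := {i0}) (J' := {i}) (by simp)
      refine ⟨σ, hσ, ?_⟩
      have := congrArg (fun K : Finset κ => i ∈ K) e
      simp at this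
      exact this.symm
    obtain ⟨g, hgA, hgC⟩ := sym σ hσ
    rw [← hσi, ← hgA, ← hgC]
    calc g * A i0 * g⁻¹ * (g * A i0 * g⁻¹) = g * (A i0 * A i0) * g⁻¹ := by group
      _ = g * (z0 * C i0) * g⁻¹ := by rw [ez0]
      _ = z0 * (g * C i0 * g⁻¹) := by rw [← mul_assoc g, ← (h.central hz0 g).eq]; group
  obtain ⟨ζ, hζ⟩ := h.scal z0 hz0
  have hV : 0 < finrank F V := by omega
  have : Nontrivial V := Module.nontrivial_of_finrank_pos hV
  have hζ0 : ζ ≠ 0 := by
    rintro rfl
    obtain ⟨v, hv⟩ := exists_ne (0 : V)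
    exact hv ((ρ z0).map_eq_zero_iff.1 (by rw [hζ, zero_smul]))
  have sqA' : ∀ i v, ρ (A i) (ρ (A i) v) = ζ • c i v := fun i v => by
    rw [← ρmul, sqAll, ρmul, hζ, cv]
  have anti : ∀ (I : Finset κ) i, i ∈ I → ∀ v ∈ W c I, ρ (A i) (ρ (B i) v) = - ρ (B i) (ρ (A i) v) := by
    intro I i hi v hv
    rw [← ρmul, ABC, ρmul, ρmul, ← cv]
    exact W_neg (pres (BC i) I _ (pres (AC i) I _ hv)) hi
  -- dimensions
  have even_d : ∀ I : Finset κ, I.Nonempty → Even (finrank F (W c I)) := by
    rintro I ⟨i, hi⟩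
    exact even_sub h2 (a := (ρ (A i) : V →ₗ[F] V)) (b := (ρ (B i) : V →ₗ[F] V)) (ρ (A i)).injective (ρ (B i)).injective
      (fun v hv => pres (AC i) I v hv) (fun v hv => pres (BC i) I v hv) (fun v hv => anti I i hi v hv)
  have four_d : ∀ I : Finset κ, 2 ≤ I.card → 4 ∣ finrank F (W c I) := by
    intro I hI
    obtain ⟨i, hi, j, hj, hij⟩ := Finset.one_lt_card.1 hI
    have sw : ∀ {g k : G}, Commute g k → ∀ v, ρ g (ρ k v) = ρ k (ρ g v) := fun {g k} hgk v => by
      rw [← ρmul, ← ρmul, hgk.eq]
    refine four_dvd_sub h2 (a := ρ (A i)) (b := ρ (B i)) (a' := ρ (A j)) (b' := ρ (B j)) hζ0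
      (fun v hv => pres (AC i) I v hv) (fun v hv => pres (BC i) I v hv)
      (fun v hv => pres (AC j) I v hv) (fun v hv => pres (BC j) I v hv) ?_
      (fun v hv => anti I i hi v hv) (fun v hv => anti I j hj v hv)
      (fun v _ => sw (AA i j hij) v) (fun v _ => sw (AB i j hij) v) (fun v _ => sw (AB j i hij.symm) v)
    intro v hv
    rw [sw (AA j i hij.symm), sqA', sqA', W_neg hv hj]
    rw [smul_neg, map_neg, map_smul, W_neg hv hi, smul_neg, smul_neg, smul_neg, neg_neg, smul_smul]
  -- parity
  obtain ⟨ε, hε⟩ := h.scal (((Finset.univ : Finset κ).toList.map C).prod) (by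
    rw [map_list_prod, List.map_map, ← hprod]
    congr 2
    funext i
    exact πC i)
  have par : ∀ I : Finset κ, finrank F (W c I) ≠ 0 → ε = (-1) ^ I.card := by
    intro I hI
    obtain ⟨v, hv, hv0⟩ := Submodule.exists_mem_ne_zero_of_ne_bot (p := W c I) (by
      rintro hb; rw [hb, finrank_bot] at hI; exact hI rfl)
    have e1 := list_prod_apply (ρ := ρ) (C := C) (J := I) (v := v) (θ := 1) (fun i => by
      rw [← cv, hv i]; split_ifs <;> simp) (Finset.univ : Finset κ).toList
    rw [hε, list_prod_sign, one_pow, mul_one] at e1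
    exact smul_left_injective F hv0 e1
  -- counting
  have hmid : ∀ I : Finset κ, 2 ≤ I.card → I.card + 1 ≤ Fintype.card κ → finrank F (W c I) = 0 := by
    intro I h1 h4
    by_contra h0
    have h5 := choose_mul_le h2 hcc h3 hg I
    have h6 := le_choose (n := Fintype.card κ) (k := I.card) (by omega) h4
    have h7 : 4 ≤ finrank F (W c I) := Nat.le_of_dvd (Nat.pos_of_ne_zero h0) (four_d I h1)
    have h8 := Nat.mul_le_mul h6 h7
    omega
  have hd1 : ∀ i, finrank F (W c {i}) = finrank F (W c {i0}) := fun i =>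
    finrank_W_of_card h3 hg (by simp)
  have htot := sum_eq h2 hcc2 hcc
  set TT : Finset (Finset κ) := insert ∅ (insert Finset.univ (Finset.univ.image fun i : κ => ({i} : Finset κ))) with hTT
  have hsub : ∑ J ∈ TT, finrank F (W c J) = ∑ J : Finset κ, finrank F (W c J) := by
    refine Finset.sum_subset (Finset.subset_univ _) fun J _ hJ => hmid J ?_ ?_
    · by_contra hlt
      apply hJ
      have : J.card = 0 ∨ J.card = 1 := by omega
      rcases this with h0 | h0
      · rw [Finset.card_eq_zero] at h0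
        rw [hTT, h0]; exact Finset.mem_insert_self _ _
      · obtain ⟨i, rfl⟩ := Finset.card_eq_one.1 h0
        rw [hTT]
        refine Finset.mem_insert_of_mem (Finset.mem_insert_of_mem ?_)
        exact Finset.mem_image_of_mem _ (Finset.mem_univ i)
    · by_contra hlt
      apply hJ
      have h5 : J.card = Fintype.card κ := le_antisymm (Finset.card_le_univ J) (by omega)
      have h6 : J = Finset.univ := (Finset.card_eq_iff_eq_univ J).1 h5
      rw [hTT, h6]
      exact Finset.mem_insert_of_mem (Finset.mem_insert_self _ _)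
  have hu0 : (∅ : Finset κ) ≠ Finset.univ := by
    intro e
    have := congrArg Finset.card e
    rw [Finset.card_empty, Finset.card_univ] at this; omega
  have hsum : ∑ J ∈ TT, finrank F (W c J) =
      finrank F (W c ∅) + (finrank F (W c Finset.univ) + Fintype.card κ * finrank F (W c {i0})) := by
    rw [hTT, Finset.sum_insert, Finset.sum_insert, Finset.sum_image]
    · rw [Finset.sum_congr rfl fun i _ => hd1 i, Finset.sum_const, Finset.card_univ, smul_eq_mul]
    · intro i _ j _ hij
      exact Finset.singleton_injective hij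
    · rw [Finset.mem_image]
      rintro ⟨i, -, hi⟩
      have := congrArg Finset.card hi
      rw [Finset.card_singleton, Finset.card_univ] at this; omega
    · rw [Finset.mem_insert, Finset.mem_image]
      rintro (e | ⟨i, -, hi⟩)
      · exact hu0 e
      · have := congrArg Finset.card hi
        rw [Finset.card_singleton, Finset.card_empty] at this; omega
  rw [← hsub, hsum, hdim] at htot
  obtain ⟨k, hk⟩ := even_d {i0} (Finset.singleton_nonempty i0)
  obtain ⟨m, hm⟩ := four_d Finset.univ (by rw [Finset.card_univ]; omega)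
  have hk1 : k ≤ 1 := by
    by_contra hk2
    have : Fintype.card κ * 4 ≤ Fintype.card κ * finrank F (W c {i0}) := Nat.mul_le_mul_left _ (by omega)
    omega
  interval_cases k
  · -- `c i c j = 1`
    rw [hk] at htot
    obtain ⟨i, j, hij⟩ : ∃ i j : κ, i ≠ j := Fintype.exists_ne_of_one_lt_card (by omega) i0 |>.elim
      fun b hb => ⟨b, i0, hb⟩
    apply hne i j hij
    rw [← πC, ← πC, ← map_mul]
    refine h.conv _ 1 fun v => ?_
    rw [one_smul, ρmul, ← cv, ← cv]
    have hall : ∀ J, W c J ≤ LinearMap.ker ((c i).comp (c j) - LinearMap.id) := by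
      intro J v hv
      rw [LinearMap.mem_ker, LinearMap.sub_apply, LinearMap.comp_apply, LinearMap.id_apply, sub_eq_zero]
      by_cases hJ : J ∈ TT
      · rw [hTT, Finset.mem_insert, Finset.mem_insert, Finset.mem_image] at hJ
        rcases hJ with rfl | rfl | ⟨l, -, rfl⟩
        · rw [W_pos hv (by simp), W_pos hv (by simp)]
        · rw [W_neg hv (Finset.mem_univ _), map_neg, W_neg hv (Finset.mem_univ _), neg_neg]
        · have h0 : finrank F (W c {l}) = 0 := by rw [hd1, hk]
          rw [Submodule.finrank_eq_zero] at h0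
          rw [h0] at hv
          rw [(Submodule.mem_bot F).1 hv]; simp
      · have h0 : finrank F (W c J) = 0 := by
          have h9 : ∑ K ∈ Finset.univ \ TT, finrank F (W c K) = 0 := by
            have := Finset.sum_sdiff (Finset.subset_univ TT) (f := fun K => finrank F (W c K))
            omega
          exact (Finset.sum_eq_zero_iff.1 h9) J (by simp [hJ])
        rw [Submodule.finrank_eq_zero] at h0
        rw [h0] at hv
        rw [(Submodule.mem_bot F).1 hv]; simp
    have h10 : (⊤ : Submodule F V) ≤ LinearMap.ker ((c i).comp (c j) - LinearMap.id) := by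
      rw [← iSup_W h2 hcc2 hcc]
      exact iSup_le hall
    have h11 := h10 (Submodule.mem_top (x := v))
    rw [LinearMap.mem_ker, LinearMap.sub_apply, LinearMap.comp_apply, LinearMap.id_apply, sub_eq_zero] at h11
    exact h11
  · have hpar1 := par {i0} (by rw [hk]; norm_num)
    have h0 : finrank F (W c ∅) = 0 := by
      by_contra h0
      have hpar0 := par ∅ h0
      rw [hpar0, Finset.card_empty, Finset.card_singleton, pow_zero, pow_one] at hpar1
      apply h2
      have : (2 : F) = 1 - -1 := by norm_num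
      rw [this, ← hpar1, sub_self]
    rw [h0, hk, hm] at htot
    omega

end spabs

end Cfsg.Agent.H210.DoRes
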