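import Cfsg.Agent.H210.DoRes.SpAbs
import Cfsg.Agent.H210.DoRes.OmGrp
import Cfsg.Prelude.Def_Classical

/-!
# `PSp_2n(q)` has no projective representation of degree `2n+2` in odd characteristic (helper210)
-/

set_option autoImplicit false

namespace Cfsg.Agent.H210.DoRes

open Module
open scoped commutatorElement Matrix

section blocks

variable {K : Type} [Field K] {n : ℕ}

/-- `SL_2` -/
abbrev SLT (K : Type) [Field K] : Type := Matrix.SpecialLinearGroup (Fin 2) K

/-- a matrix from `SL_2` on every hyperbolic plane -/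
def MM (f : Fin n → SLT K) : Matrix (Fin n ⊕ Fin n) (Fin n ⊕ Fin n) K :=
  Matrix.fromBlocks (Matrix.diagonal fun i => f i 0 0) (Matrix.diagonal fun i => f i 0 1)
    (Matrix.diagonal fun i => f i 1 0) (Matrix.diagonal fun i => f i 1 1)

theorem MM_mul (f g : Fin n → SLT K) : MM f * MM g = MM (f * g) := by
  unfold MM
  rw [Matrix.fromBlocks_multiply]
  simp only [Matrix.diagonal_mul_diagonal, Matrix.diagonal_add, Pi.mul_apply, Matrix.SpecialLinearGroup.coe_mul,
    Matrix.mul_apply, Fin.sum_univ_two]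

theorem MM_one : MM (1 : Fin n → SLT K) = 1 := by
  unfold MM
  simp [Matrix.fromBlocks_one]

theorem MM_mem (f : Fin n → SLT K) : MM f ∈ Matrix.symplecticGroup (Fin n) K := by
  rw [SymplecticGroup.mem_iff]
  unfold MM Matrix.J
  rw [Matrix.fromBlocks_transpose, Matrix.fromBlocks_multiply, Matrix.fromBlocks_multiply]
  have hdet : ∀ i, f i 0 0 * f i 1 1 - f i 0 1 * f i 1 0 = 1 := fun i => by
    rw [← Matrix.det_fin_two]; exact (f i).2
  congr 1
  · simp only [Matrix.diagonal_transpose, Matrix.mul_zero, Matrix.mul_one, Matrix.mul_neg, zero_add, add_zero,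
      Matrix.neg_mul, Matrix.diagonal_mul_diagonal]
    ext i j
    by_cases h : i = j
    · subst h; simp; ring
    · simp [h]
  · simp only [Matrix.diagonal_transpose, Matrix.mul_zero, Matrix.mul_one, Matrix.mul_neg, zero_add, add_zero,
      Matrix.neg_mul, Matrix.diagonal_mul_diagonal]
    ext i j
    by_cases h : i = j
    · subst h
      simp
      linear_combination - hdet i
    · simp [h]
  · simp only [Matrix.diagonal_transpose, Matrix.mul_zero, Matrix.mul_one, Matrix.mul_neg, zero_add, add_zero,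
      Matrix.neg_mul, Matrix.diagonal_mul_diagonal]
    ext i j
    by_cases h : i = j
    · subst h
      simp
      linear_combination hdet i
    · simp [h]
  · simp only [Matrix.diagonal_transpose, Matrix.mul_zero, Matrix.mul_one, Matrix.mul_neg, zero_add, add_zero,
      Matrix.neg_mul, Matrix.diagonal_mul_diagonal]
    ext i j
    by_cases h : i = j
    · subst h; simp; ring
    · simp [h]

/-- the homomorphism -/
def ΦΦ (K : Type) [Field K] (n : ℕ) : (Fin n → SLT K) →* Matrix.symplecticGroup (Fin n) K where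
  toFun f := ⟨MM f, MM_mem f⟩
  map_one' := Subtype.ext MM_one
  map_mul' f g := Subtype.ext (MM_mul f g).symm

/-- permutation matrices -/
def PM (K : Type) [Field K] {n : ℕ} (σ : Equiv.Perm (Fin n)) : Matrix (Fin n ⊕ Fin n) (Fin n ⊕ Fin n) K :=
  ((Equiv.sumCongr σ⁻¹ σ⁻¹).toPEquiv).toMatrix

theorem PM_mem (σ : Equiv.Perm (Fin n)) : PM K σ ∈ Matrix.symplecticGroup (Fin n) K := by
  rw [SymplecticGroup.mem_iff]
  unfold PM
  rw [PEquiv.toMatrix_toPEquiv_mul, ← PEquiv.toMatrix_symm, ← Equiv.toPEquiv_symm, PEquiv.mul_toMatrix_toPEquiv]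
  ext i j
  rcases i with i | i <;> rcases j with j | j <;> simp [Matrix.J, Matrix.one_apply]

/-- as an element of the symplectic group -/
def PG (K : Type) [Field K] {n : ℕ} (σ : Equiv.Perm (Fin n)) : Matrix.symplecticGroup (Fin n) K := ⟨PM K σ, PM_mem σ⟩

theorem PG_mul (σ : Equiv.Perm (Fin n)) (f : Fin n → SLT K) :
    PG K σ * ΦΦ K n f = ΦΦ K n (fun i => f (σ⁻¹ i)) * PG K σ := by
  apply Subtype.ext
  show PM K σ * MM f = MM (fun i => f (σ⁻¹ i)) * PM K σ
  unfold PM
  rw [PEquiv.toMatrix_toPEquiv_mul, PEquiv.mul_toMatrix_toPEquiv]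
  ext i j
  have e : σ⁻¹.symm = σ := rfl
  rcases i with i | i <;> rcases j with j | j <;>
    simp [MM, Matrix.diagonal_apply, Equiv.symm_apply_eq, e]

theorem PG_conj (σ : Equiv.Perm (Fin n)) (i : Fin n) (A : SLT K) :
    PG K σ * ΦΦ K n (Pi.mulSingle i A) * (PG K σ)⁻¹ = ΦΦ K n (Pi.mulSingle (σ i) A) := by
  rw [PG_mul, mul_inv_cancel_right]
  congr 1
  funext k
  rw [Pi.mulSingle_apply, Pi.mulSingle_apply]
  by_cases h : k = σ i
  · rw [if_pos h, if_pos (by rw [h]; simp)]
  · rw [if_neg h, if_neg (fun h' => h (by rw [← h']; simp))]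

theorem list_single {M : Type*} [Monoid M] (L : List (Fin n)) (hL : L.Nodup) (x : M) (k : Fin n) :
    (L.map fun i => (Pi.mulSingle i x : Fin n → M)).prod k = if k ∈ L then x else 1 := by
  induction L with
  | nil => simp
  | cons i L ih =>
    rw [List.nodup_cons] at hL
    rw [List.map_cons, List.prod_cons, Pi.mul_apply, ih hL.2, Pi.mulSingle_apply]
    by_cases h : k = i
    · subst h
      rw [if_pos rfl, if_neg hL.1, if_pos (by simp), mul_one]
    · rw [if_neg h, one_mul]
      by_cases h' : k ∈ L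
      · rw [if_pos h', if_pos (by simp [h'])]
      · rw [if_neg h', if_neg (by simp [h', h])]

theorem quat_group {T : Type*} [Group T] {i j t m : T} (hii : i * i = m) (hjj : j * j = m)
    (hij : i * j = m * (j * i)) (hm : ∀ x, Commute m x) (hmm : m * m = 1) (hti : t * i = j * t)
    (htj : t * j = i * j * t) :
    ∃ a b : T, ⁅j, t⁆ = a ∧ ⁅i, t⁆ = b ∧ ⁅a, b⁆ = a * a ∧ b * b = a * a ∧ a * a = m := by
  have mi : m⁻¹ = m := inv_eq_of_mul_eq_one_left hmm
  have ea : ⁅j, t⁆ = i⁻¹ := by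
    have : t * j * t⁻¹ = i * j := by rw [htj, mul_inv_cancel_right]
    have e2 : t * j⁻¹ * t⁻¹ = (i * j)⁻¹ := by rw [← this]; group
    rw [commutatorElement_def]
    calc j * t * j⁻¹ * t⁻¹ = j * (t * j⁻¹ * t⁻¹) := by group
      _ = i⁻¹ := by rw [e2]; group
  have eb : ⁅i, t⁆ = i * j⁻¹ := by
    have : t * i * t⁻¹ = j := by rw [hti, mul_inv_cancel_right]
    have e2 : t * i⁻¹ * t⁻¹ = j⁻¹ := by rw [← this]; group
    rw [commutatorElement_def]
    calc i * t * i⁻¹ * t⁻¹ = i * (t * i⁻¹ * t⁻¹) := by group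
      _ = i * j⁻¹ := by rw [e2]
  have e1 : i⁻¹ * i⁻¹ = m := by rw [← mul_inv_rev, hii, mi]
  have e3 : j⁻¹ * i = m * (i * j⁻¹) := by
    calc j⁻¹ * i = j⁻¹ * (i * j) * j⁻¹ := by group
      _ = j⁻¹ * (m * (j * i)) * j⁻¹ := by rw [hij]
      _ = m * (i * j⁻¹) := by rw [← mul_assoc j⁻¹ m, ← (hm j⁻¹).eq]; group
  refine ⟨i⁻¹, i * j⁻¹, ea, eb, ?_, ?_, e1⟩
  · rw [e1, commutatorElement_def]
    calc i⁻¹ * (i * j⁻¹) * i⁻¹⁻¹ * (i * j⁻¹)⁻¹ = (j⁻¹ * i) * (j * i⁻¹) := by group
      _ = m := by rw [e3]; group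
  · rw [e1]
    calc i * j⁻¹ * (i * j⁻¹) = i * (j⁻¹ * i) * j⁻¹ := by group
      _ = i * (m * (i * j⁻¹)) * j⁻¹ := by rw [e3]
      _ = m * (i * i) * (j⁻¹ * j⁻¹) := by rw [← mul_assoc i m, ← (hm i).eq]; group
      _ = m := by rw [hii, hmm, one_mul, ← mul_inv_rev, hjj, mi]

theorem exists_quat [Fintype K] (h2 : (2 : K) ≠ 0) : ∃ a b x y x' y' : SLT K, ⁅x, y⁆ = a ∧ ⁅x', y'⁆ = b ∧ ⁅a, b⁆ = a * a ∧
    b * b = a * a ∧ ((a * a : SLT K) : Matrix (Fin 2) (Fin 2) K) = -1 := by
  obtain ⟨u, v, huv⟩ := exists_two_sq h2 (-1 : K)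
  obtain ⟨i, hi⟩ : ∃ i : SLT K, (i : Matrix (Fin 2) (Fin 2) K) = !![0, 1; -1, 0] :=
    ⟨⟨!![0, 1; -1, 0], by rw [Matrix.det_fin_two]; simp⟩, rfl⟩
  obtain ⟨j, hj⟩ : ∃ j : SLT K, (j : Matrix (Fin 2) (Fin 2) K) = !![u, v; v, -u] :=
    ⟨⟨!![u, v; v, -u], by rw [Matrix.det_fin_two]; simp; linear_combination -huv⟩, rfl⟩
  obtain ⟨t, ht⟩ : ∃ t : SLT K, (t : Matrix (Fin 2) (Fin 2) K) =
      !![(1 + u + v) / 2, (1 + v - u) / 2; (-1 + v - u) / 2, (1 - u - v) / 2] :=
    ⟨⟨!![(1 + u + v) / 2, (1 + v - u) / 2; (-1 + v - u) / 2, (1 - u - v) / 2], by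
      rw [Matrix.det_fin_two]; simp; field_simp; linear_combination -2 * huv⟩, rfl⟩
  have h1m : (-1 : Matrix (Fin 2) (Fin 2) K) = !![-1, 0; 0, -1] := by
    ext a b; fin_cases a <;> fin_cases b <;> simp
  have hm1 : ((i * i : SLT K) : Matrix (Fin 2) (Fin 2) K) = -1 := by
    rw [Matrix.SpecialLinearGroup.coe_mul, hi, Matrix.mul_fin_two, h1m]
    simp
  have hjj : j * j = i * i := by
    apply Subtype.ext
    rw [hm1, Matrix.SpecialLinearGroup.coe_mul, hj, Matrix.mul_fin_two, h1m]
    have e1 : u * u + v * v = -1 := by linear_combination huv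
    have e2 : u * v + v * -u = 0 := by ring
    have e3 : v * u + -u * v = 0 := by ring
    have e4 : v * v + -u * -u = -1 := by linear_combination huv
    rw [e1, e2, e3, e4]
  have hij : i * j = (i * i) * (j * i) := by
    apply Subtype.ext
    rw [Matrix.SpecialLinearGroup.coe_mul (i * i), hm1, Matrix.SpecialLinearGroup.coe_mul,
      Matrix.SpecialLinearGroup.coe_mul, hi, hj, Matrix.mul_fin_two, Matrix.mul_fin_two, h1m, Matrix.mul_fin_two]
    simp
  have hti : t * i = j * t := by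
    apply Subtype.ext
    rw [Matrix.SpecialLinearGroup.coe_mul, Matrix.SpecialLinearGroup.coe_mul, hi, hj, ht, Matrix.mul_fin_two,
      Matrix.mul_fin_two]
    ext a b
    fin_cases a <;> fin_cases b <;> simp <;> field_simp <;>
      first
      | linear_combination (-1 : K) * huv
      | linear_combination (1 : K) * huv
  have htj : t * j = i * j * t := by
    apply Subtype.ext
    rw [Matrix.SpecialLinearGroup.coe_mul, Matrix.SpecialLinearGroup.coe_mul, Matrix.SpecialLinearGroup.coe_mul, hi, hj,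
      ht, Matrix.mul_fin_two, Matrix.mul_fin_two, Matrix.mul_fin_two]
    ext a b
    fin_cases a <;> fin_cases b <;> simp <;> field_simp <;>
      first
      | linear_combination (-1 : K) * huv
      | linear_combination (1 : K) * huv
      | linear_combination (0 : K) * huv
  have hcm : ∀ x : SLT K, Commute (i * i) x := fun x => by
    apply Subtype.ext
    rw [Matrix.SpecialLinearGroup.coe_mul (i * i), Matrix.SpecialLinearGroup.coe_mul x, hm1, neg_one_mul, mul_neg_one]
  have hmm : (i * i) * (i * i) = (1 : SLT K) := by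
    apply Subtype.ext
    rw [Matrix.SpecialLinearGroup.coe_mul (i * i), hm1, neg_mul_neg, one_mul]; rfl
  obtain ⟨a, b, h1, h3, h4, h5, h6⟩ := quat_group rfl hjj hij hcm hmm hti htj
  exact ⟨a, b, j, t, i, t, h1, h3, h4, h5, by rw [h6, hm1]⟩

end blocks

section

variable {F V G S : Type*} [Field F] [AddCommGroup V] [Module F V]
  [Group G] [Group S] {ρ : G →* (V ≃ₗ[F] V)} {π : G →* S}

theorem sp_case [FiniteDimensional F V] (h : PR ρ π) (h2 : (2 : F) ≠ 0) {n : ℕ} (hn : 4 ≤ n)
    (hdim : finrank F V = 2 * n + 2)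
    {K : Type} [Field K] [Fintype K] (hK : (2 : K) ≠ 0) (e : S ≃* Cfsg.PSp n K) : False := by
  classical
  obtain ⟨a, b, x, y, x', y', ha, hb, hab, hb2, hm⟩ := exists_quat hK
  let q : Matrix.symplecticGroup (Fin n) K →* S :=
    e.symm.toMonoidHom.comp (QuotientGroup.mk' (Subgroup.center (Matrix.symplecticGroup (Fin n) K)))
  have q_one : ∀ x, q x = 1 → x ∈ Subgroup.center (Matrix.symplecticGroup (Fin n) K) := fun x hx => by
    have : (QuotientGroup.mk' (Subgroup.center (Matrix.symplecticGroup (Fin n) K))) x = 1 :=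
      e.symm.injective (hx.trans (map_one e.symm).symm)
    exact (QuotientGroup.eq_one_iff x).1 this
  have q_one' : ∀ x ∈ Subgroup.center (Matrix.symplecticGroup (Fin n) K), q x = 1 := fun x hx => by
    have : (QuotientGroup.mk' (Subgroup.center (Matrix.symplecticGroup (Fin n) K))) x = 1 :=
      (QuotientGroup.eq_one_iff x).2 hx
    show e.symm _ = 1
    rw [this, map_one]
  let φ : Fin n → SLT K →* S := fun i => (q.comp (ΦΦ K n)).comp (MonoidHom.mulSingle (fun _ : Fin n => SLT K) i)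
  have φa : ∀ i A, φ i A = q (ΦΦ K n (Pi.mulSingle i A)) := fun _ _ => rfl
  refine sp_abs (κ := Fin n) h h2 (by rwa [Fintype.card_fin]) (by rw [Fintype.card_fin]; exact hdim) φ
    (fun i j hij A B => ?_) (fun σ _ => ⟨q (PG K σ), fun i A => ?_⟩) ha hb hab hb2 ?_ (fun i k hik h1 => ?_)
  · exact (Pi.mulSingle_commute (f := fun _ : Fin n => SLT K) hij A B).map (q.comp (ΦΦ K n))
  · rw [φa, φa, ← map_inv, ← map_mul, ← map_mul, PG_conj]
  · have e1 : ((Finset.univ : Finset (Fin n)).toList.map fun i => φ i (a * a)) =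
        ((Finset.univ : Finset (Fin n)).toList.map fun i => (Pi.mulSingle i (a * a) : Fin n → SLT K)).map
          (q.comp (ΦΦ K n)) := by
      rw [List.map_map]; rfl
    rw [e1, ← map_list_prod]
    have e2 : ((Finset.univ : Finset (Fin n)).toList.map fun i => (Pi.mulSingle i (a * a) : Fin n → SLT K)).prod =
        fun _ => a * a := by
      funext k
      rw [list_single _ (Finset.nodup_toList _), if_pos (by simp)]
    rw [e2]
    apply q_one'
    rw [Subgroup.mem_center_iff]
    intro g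
    have e3 : ((ΦΦ K n fun _ => a * a : Matrix.symplecticGroup (Fin n) K) : Matrix (Fin n ⊕ Fin n) (Fin n ⊕ Fin n) K) = -1 := by
      show MM (fun _ => a * a) = -1
      unfold MM
      simp only [hm]
      ext i j
      rcases i with i | i <;> rcases j with j | j <;> simp [Matrix.diagonal_apply, Matrix.one_apply] <;> split_ifs <;> simp
    apply Subtype.ext
    show (g : Matrix (Fin n ⊕ Fin n) (Fin n ⊕ Fin n) K) * _ = _ * (g : Matrix (Fin n ⊕ Fin n) (Fin n ⊕ Fin n) K)
    rw [e3, mul_neg_one, neg_one_mul]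
  · rw [φa, φa, ← map_mul, ← map_mul] at h1
    have hc := q_one _ h1
    obtain ⟨l, hl⟩ : ∃ l : Fin n, l ∉ ({i, k} : Finset (Fin n)) := by
      by_contra hcon
      push Not at hcon
      have h3 : (Finset.univ : Finset (Fin n)) ⊆ {i, k} := fun l _ => hcon l
      have h4 := Finset.card_le_card h3
      rw [Finset.card_univ, Fintype.card_fin, Finset.card_pair hik] at h4
      omega
    rw [Finset.mem_insert, Finset.mem_singleton, not_or] at hl
    have h3 := PG_mul (K := K) (Equiv.swap i l) (Pi.mulSingle i (a * a) * Pi.mulSingle k (a * a))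
    rw [Subgroup.mem_center_iff.1 hc] at h3
    have h4 := mul_right_cancel h3
    have h5 := congrFun (congrFun (congrArg (fun M : Matrix.symplecticGroup (Fin n) K =>
      (M : Matrix (Fin n ⊕ Fin n) (Fin n ⊕ Fin n) K)) h4) (Sum.inl i)) (Sum.inl i)
    have e3 : ((Pi.mulSingle i (a * a) * Pi.mulSingle k (a * a) : Fin n → SLT K) i) = a * a := by
      rw [Pi.mul_apply, Pi.mulSingle_eq_same, Pi.mulSingle_eq_of_ne hik, mul_one]
    have e4 : ((Pi.mulSingle i (a * a) * Pi.mulSingle k (a * a) : Fin n → SLT K) ((Equiv.swap i l)⁻¹ i)) = 1 := by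
      rw [Equiv.swap_inv, Equiv.swap_apply_left, Pi.mul_apply, Pi.mulSingle_eq_of_ne hl.1, Pi.mulSingle_eq_of_ne hl.2, mul_one]
    have e5 : ∀ f : Fin n → SLT K, ((ΦΦ K n f : Matrix.symplecticGroup (Fin n) K) :
        Matrix (Fin n ⊕ Fin n) (Fin n ⊕ Fin n) K) (Sum.inl i) (Sum.inl i) = f i 0 0 := by
      intro f
      show MM f _ _ = _
      simp [MM]
    simp only [e5] at h5
    rw [e3, e4, hm] at h5
    apply hK
    have : (2 : K) = 1 - -1 := by norm_num
    simp at h5
    rw [this, h5]; ring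

end

end Cfsg.Agent.H210.DoRes
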